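import Cfsg.Agent.Am33.TCL
import Cfsg.Agent.Spec.MatList
import Cfsg.Agent.Geom.PSLn
import Cfsg.Agent.L34.Id

/-! The completion `PSL₃(3)` of the amalgam. -/

set_option autoImplicit false
set_option maxRecDepth 100000

namespace Cfsg.Agent.Am33

open Cfsg.Agent.Mat

open Cfsg.Agent.Spec Matrix

/-- The generators inside `SL₃(3)`. -/
def msL : List ℕ := [6652, 6661, 6646, 6649, 6886, 7129, 13285, 6725, 4618, 2674, 11584, 15634, 6618, 6594, 4618, 2674, 11584, 15634]

/-- Value of a word. -/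
def evM (w : List ℕ) : ℕ := mlProd 3 3 (w.map fun a => msL.getD a (mlOne 3 3))

/-- A coded matrix as a group element. -/
def sl (c : ℕ) : SpecialLinearGroup (Fin 3) (ZMod 3) := if h : (mlDec 3 3 c).det = 1 then ⟨_, h⟩ else 1

theorem sl_val {c : ℕ} (h : (mlDec 3 3 c).det = 1) : (sl c : Matrix _ _ _) = mlDec 3 3 c :=
  congrArg Subtype.val (dif_pos h)

theorem ev_sl (w : List ℕ) :
    ((ev (msL.map sl) w : SpecialLinearGroup (Fin 3) (ZMod 3)) : Matrix _ _ _) = mlDec 3 3 (evM w) := by
  have h0 := mlDec_one three_pos 3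
  induction w with
  | nil => exact h0.symm
  | cons a w ih =>
    have h1 : sl (mlOne 3 3) = 1 := Subtype.ext ((sl_val (by rw [h0, det_one])).trans h0)
    have h2 : (mlDec 3 3 (msL.getD a (mlOne 3 3))).det = 1 := by
      rw [List.getD_eq_getElem?_getD]
      cases e : msL[a]? with
      | none => rw [Option.getD_none, h0, det_one]
      | some x =>
        exact (by simp only [det_fin_three]; decide +kernel : ∀ x ∈ msL, (mlDec 3 3 x).det = 1) x
          (List.mem_of_getElem? e)
    rw [ev, evM, List.map_cons, mlProd, mlForce_eq, mlDec_mul three_pos, ← evM, ← ih, ← h1, List.getD_map,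
      ← sl_val h2]
    exact Matrix.SpecialLinearGroup.coe_mul _ _

theorem rels_msL : ∀ r ∈ rels [6] [6] [6], evM r = mlOne 3 3 := by decide +kernel

theorem tv_words : ∀ (c : ZMod 3) (i j : Fin 3), i = j ∨ ∃ w ∈ [[], [2], [3], [0], [1], [2, 13, 2], [3, 12, 3], [4], [5], [1, 13, 10, 12], [0, 12, 10, 13], [11, 5], [4, 10]],
    mlDec 3 3 (evM w) = 1 + Matrix.single i j c := by decide +kernel

theorem isoL {G : Type*} [Group G] [Finite G] {gs : List G} (hl : gs.length = 18) (h1 : cl gs = ⊤)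
    (h : ∀ r ∈ rels [6] [6] [6], ev gs r = 1) [Nontrivial G] :
    Nonempty (G ≃* ProjectiveSpecialLinearGroup (Fin 3) (ZMod 3)) := by
  let π := QuotientGroup.mk' (Subgroup.center (SpecialLinearGroup (Fin 3) (ZMod 3)))
  have h2 : cl ((msL.map sl).map π) = (⊤ : Subgroup (ProjectiveSpecialLinearGroup (Fin 3) (ZMod 3))) := by
    rw [eq_top_iff]
    rintro ⟨A⟩ -
    refine Geom.sl_induction (fun A => π A ∈ cl ((msL.map sl).map π)) (fun i j hij c => ?_)
      (fun _ _ a b => map_mul π _ _ ▸ mul_mem a b) A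
    obtain ⟨w, -, hw⟩ := (tv_words c i j).resolve_left hij
    rw [show SpecialLinearGroup.transvection hij c = ev (msL.map sl) w from
      Subtype.ext (hw.symm.trans (ev_sl w).symm), map_ev]
    exact ev_mem_cl _ w
  have h3 := L34.card_psl3 (F := ZMod 3)
  rw [ZMod.card] at h3
  norm_num [-Nat.card_eq_fintype_card] at h3
  obtain ⟨F, hF⟩ := exists_hom_words (ms := (msL.map sl).map π) (gs := gs) hl.symm
    (fun l hl' => pres_of tcL l (hl'.trans hl)) ((congrArg (fun K : Subgroup _ => Nat.card K) h2).trans (Subgroup.card_top.trans h3)).ge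
    (fun r hr => by
      rw [← map_ev, show ev (msL.map sl) r = 1 from
        Subtype.ext ((ev_sl r).trans (rels_msL r hr ▸ mlDec_one three_pos 3)), map_one]) h
  let F' := F.comp ((MulEquiv.subgroupCongr h2).trans Subgroup.topEquiv).symm.toMonoidHom
  have h4 : Function.Surjective F' :=
    (MonoidHom.range_eq_top.mp ((range_eq_cl hF).trans h1)).comp (MulEquiv.surjective _)
  have := Geom.psl_simple (ι := Fin 3) (F := ZMod 3) (by simp)
  refine ⟨(MulEquiv.ofBijective F' ⟨F'.ker_eq_bot_iff.mp (F'.normal_ker.eq_bot_or_eq_top.resolve_right fun e => ?_),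
    h4⟩).symm⟩
  obtain ⟨g, hg⟩ := exists_ne (1 : G)
  obtain ⟨x, rfl⟩ := h4 g
  exact hg (e.ge (Subgroup.mem_top x))

end Cfsg.Agent.Am33
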