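import Cfsg.Agent.Am33.TCM
import Cfsg.Agent.Mat.M12I

/-! The completion `M₁₂` of the amalgam. -/

set_option autoImplicit false
set_option maxRecDepth 100000

namespace Cfsg.Agent.Am33

open Cfsg.Agent.Mat

/-- The generators inside `M₁₂`. -/
def msM : List (CP 24) := cpL 24 [0x17050f14160d0b100a0e090c071512041100130103060802, 0x17130a1405090710150e120c110f0d010b02160803000406, 0x1405150e160807100f17040c110a01000b091302030d0612, 0xe13151705000b100f14020c070a06121101160d03040908, 0x170705140b12150c130e0d030f1609010a00110810060402, 0x170a11140f1205030b0e0d1013070904160215010c000806, 0x17160f0e05090b1015140d0c110a12060708130203040001, 0x17070f141109130c150e0d10050a120116000b0403020806, 0xa07140f110205100e150d0c1317040016010b1203090806, 0xa070e150b041310140f0d0c051702011600110903120608, 0x161711130e060f100b050d0c150708120a09140103000204, 0x16170b051408151011130d0c0f0706090a120e0003010402, 0x1715071405100b09160e0312130a0c060f0111020d040008, 0x170f16140b0c0512070e0309110a1000150813020d040601, 0x17160e151104050c140f0310130a020007010b090d120806,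 0x1716140f0b02130c0e150310050a0401070011120d090608, 0x1716110514080f0d0b131003150a060907120e010c000204, 0x17160b130e06150d110510030f0a0812070914000c010402] (by decide +kernel)

theorem rels_msM : ∀ r ∈ rels [] [] [6], ev msM r = 1 := by decide +kernel

theorem ms12_words : ms12 = [[0, 12, 8, 16, 0, 14], [2, 10, 16, 2, 12, 15], [10, 15, 0, 13], [4, 12, 10, 15], [5, 8, 14, 0, 12], [5, 8, 12, 14, 4], [5, 8, 14, 1, 13], [3, 7, 16, 12, 2, 16]].map (ev msM) := by decide +kernel

theorem clM_eq : cl msM = cl ms12 := by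
  refine le_antisymm (cl12_eq ▸ cl_le fun x hx => in12_spec x (by revert x; decide +kernel)) (cl_le fun x hx => ?_)
  rw [ms12_words] at hx
  obtain ⟨w, -, rfl⟩ := List.mem_map.mp hx
  exact ev_mem_cl _ w

open Subgroup Cfsg.Agent.M11 in
theorem inj12 {G : Type*} [Group G] (F : cl ms12 →* G) (h3 : 432 ∣ Nat.card F.range) : Function.Injective F := by
  have h4 := card_eq_card_quotient_mul_card_subgroup F.ker
  rw [Nat.card_congr (QuotientGroup.quotientKerEquivRange F).toEquiv, card_cl12] at h4
  obtain ⟨m, hm⟩ := h3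
  have h5 : Nat.card F.ker ∣ 220 := ⟨m, by rw [hm] at h4; nlinarith⟩
  have hM := n12_of_nse card_cl12 nse12
  by_contra hn
  obtain ⟨p, hp, hd⟩ := Nat.exists_prime_and_dvd fun e => hn (F.ker_eq_bot_iff.mp (card_eq_one.mp e))
  have := Fact.mk hp
  obtain ⟨⟨g, hg⟩, e⟩ := exists_prime_orderOf_dvd_card' p hd
  rw [orderOf_mk] at e
  have h8 := Set.ncard_le_ncard (s := {w | IsConj g w}) (t := F.ker) fun w hw => by
    obtain ⟨c, rfl⟩ := isConj_iff.mp hw
    exact F.normal_ker.conj_mem g hg c
  have h9 := cc_mul g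
  have h10 := Nat.le_of_dvd (by decide) h5
  rw [ncard_coe] at h8
  rw [hM.card] at h9
  have h11 : cc g ≤ 240 := by
    have h6 : p ∣ 2 ^ 2 * (5 * 11) := hd.trans h5
    rcases hp.dvd_mul.mp h6 with h7 | h7
    · obtain rfl := (Nat.prime_dvd_prime_iff_eq hp Nat.prime_two).mp (hp.dvd_of_dvd_pow h7)
      have := hM.cc_two e
      omega
    rcases hp.dvd_mul.mp h7 with h7 | h7
    · obtain rfl := (Nat.prime_dvd_prime_iff_eq hp Nat.prime_five).mp h7
      rw [hM.c5 g e]; omega
    · obtain rfl := (Nat.prime_dvd_prime_iff_eq hp (by norm_num)).mp h7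
      rw [hM.c11 g e]; omega
  nlinarith

theorem isoM12 {G : Type*} [Group G] [Finite G] {gs : List G} (hl : gs.length = 18) (h1 : cl gs = ⊤)
    (h : ∀ r ∈ rels [] [] [6], ev gs r = 1) (h2 : 432 ∣ Nat.card G) : Spor.IsoM12 G := by
  obtain ⟨F, hF⟩ := exists_hom_words (ms := msM) (gs := gs) hl.symm (fun l hl' => pres_of tcM l (hl'.trans hl))
    (clM_eq ▸ card_cl12.ge) rels_msM h
  let F' := F.comp (MulEquiv.subgroupCongr clM_eq).symm.toMonoidHom
  have h3 : Function.Surjective F' :=
    (MonoidHom.range_eq_top.mp ((range_eq_cl hF).trans h1)).comp (MulEquiv.surjective _)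
  have e : Spor.M12 ≃* cl ms12 :=
    (Spor.M12.equivMapOfInjective eM.toMonoidHom eM.injective).trans (MulEquiv.subgroupCongr cl12_eq.symm)
  exact ⟨(e.trans (MulEquiv.ofBijective F' ⟨inj12 F' (by
    rwa [MonoidHom.range_eq_top.mpr h3, Subgroup.card_top]), h3⟩)).symm⟩

end Cfsg.Agent.Am33
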